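import Cfsg.Agent.H385.RC.Lrs

/-!
# S3510, symplectic groups in characteristic two: orthogonal decompositions (helper385)

* `Ev.MA A` : the elements of `N` trivial on `Aᗮ`, isomorphic to `Sp (B.restrict A)`
* `Ev.step1`, `Ev.step2`, `Ev.dec_rule`.
-/

set_option autoImplicit false
set_option linter.unusedVariables false
set_option linter.unusedSimpArgs false
set_option linter.unusedSectionVars false

namespace Cfsg.Agent.H385.RC

open Cfsg Cfsg.Agent.H106.RC Cfsg.Agent.H520.RC Cfsg.Agent.H380.RC Module Submodule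

section

variable {F V G : Type*} [Field F] [AddCommGroup V] [Module F V] [FiniteDimensional F V] [Group G] [DistribMulAction G V]
  {B : LinearMap.BilinForm F V} {N : Subgroup G}

omit [FiniteDimensional F V] in
theorem Ev.mem_orth (h : Ev B N) {A : Submodule F V} {w : V} : w ∈ B.orthogonal A ↔ ∀ a ∈ A, B w a = 0 := by
  rw [LinearMap.BilinForm.mem_orthogonal_iff]
  constructor
  · intro hw a ha
    rw [h.symm]; exact hw a ha
  · intro hw a ha
    show B a w = 0
    rw [h.symm]; exact hw a ha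

theorem Ev.nondeg (h : Ev B N) : B.Nondegenerate := by
  rw [LinearMap.BilinForm.nondegenerate_iff_ker_eq_bot, LinearMap.ker_eq_bot']
  intro u hu
  exact h.nd u fun w => by rw [hu]; rfl

theorem Ev.orth_orth (h : Ev B N) (A : Submodule F V) : B.orthogonal (B.orthogonal A) = A :=
  LinearMap.BilinForm.orthogonal_orthogonal h.nondeg h.alt.isRefl A

theorem Ev.mem_of_orth_orth (h : Ev B N) {A : Submodule F V} {v : V} (hv : ∀ w ∈ B.orthogonal A, B v w = 0) : v ∈ A := by
  rw [← h.orth_orth A]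
  exact h.mem_orth.2 hv

theorem Ev.finrank_add (h : Ev B N) (A : Submodule F V) :
    finrank F A + finrank F (B.orthogonal A) = finrank F V := by
  have h1 := LinearMap.BilinForm.finrank_orthogonal h.nondeg A
  have h2 := Submodule.finrank_le A
  omega

/-- the orthogonal complement of a nondegenerate subspace is nondegenerate -/
theorem Ev.nalt_orth (h : Ev B N) {A : Submodule F V} (hA : NAlt (B.restrict A)) : NAlt (B.restrict (B.orthogonal A)) := by
  refine ⟨fun v => h.self _, fun x hx => ?_⟩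
  apply Subtype.ext
  show (x : V) = 0
  have h1 : (x : V) ∈ A := h.mem_of_orth_orth fun a ha => hx ⟨a, ha⟩
  have h2 : (⟨x, h1⟩ : A) = 0 := by
    apply hA.nd
    intro y
    show B (x : V) (y : V) = 0
    exact (h.mem_orth.1 x.2) y y.2
  exact congrArg Subtype.val h2

omit [FiniteDimensional F V] in
/-- a semilinear isometry preserving `A` preserves `Aᗮ` -/
theorem Ev.orth_inv [Finite G] (h : Ev B N) {A : Submodule F V} {x : G} (hx : ∀ v ∈ A, x • v ∈ A) :
    ∀ v ∈ B.orthogonal A, x • v ∈ B.orthogonal A := by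
  intro v hv
  rw [h.mem_orth] at hv ⊢
  intro a ha
  obtain ⟨σ, -, h2⟩ := h.semi x
  have h3 := h2 v (x⁻¹ • a)
  rw [smul_inv_smul, hv _ (inv_stable hx a ha), map_zero] at h3
  exact h3

/-- decomposition -/
theorem Ev.exists_dec (h : Ev B N) {A : Submodule F V} (hA : NAlt (B.restrict A)) (v : V) :
    ∃ a ∈ A, ∃ b ∈ B.orthogonal A, v = a + b := by
  have hd := h.finrank_add A
  have h1 : A ⊓ B.orthogonal A = ⊥ := by
    rw [eq_bot_iff]
    rintro x ⟨h1, h2⟩
    have h3 : (⟨x, h1⟩ : A) = 0 := by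
      apply hA.nd
      intro y
      exact (h.mem_orth.1 h2) y y.2
    rw [Submodule.mem_bot]
    exact congrArg Subtype.val h3
  have h2 : A ⊔ B.orthogonal A = ⊤ := by
    apply Submodule.eq_top_of_finrank_eq
    have h3 := Submodule.finrank_sup_add_finrank_inf_eq A (B.orthogonal A)
    rw [h1, finrank_bot, add_zero] at h3
    rw [h3, hd]
  have h3 : v ∈ A ⊔ B.orthogonal A := by rw [h2]; trivial
  obtain ⟨a, ha, b, hb, hab⟩ := Submodule.mem_sup.1 h3
  exact ⟨a, ha, b, hb, hab.symm⟩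

/-- the elements of `N` which are trivial on `Aᗮ` -/
def Ev.MA (h : Ev B N) (A : Submodule F V) : Subgroup G where
  carrier := {g | g ∈ N ∧ ∀ w ∈ B.orthogonal A, g • w = w}
  one_mem' := ⟨N.one_mem, fun w _ => one_smul _ w⟩
  mul_mem' := fun {a b} ha hb => ⟨N.mul_mem ha.1 hb.1, fun w hw => by rw [mul_smul, hb.2 w hw, ha.2 w hw]⟩
  inv_mem' := fun {a} ha => ⟨N.inv_mem ha.1, fun w hw => by rw [inv_smul_eq_iff, ha.2 w hw]⟩

theorem Ev.mem_MA (h : Ev B N) {A : Submodule F V} {g : G} :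
    g ∈ h.MA A ↔ g ∈ N ∧ ∀ w ∈ B.orthogonal A, g • w = w := Iff.rfl

theorem Ev.rho_emb_mem (h : Ev B N) {A : Submodule F V} (hA : NAlt (B.restrict A)) (t : Sp (B.restrict A)) :
    h.rho (emb h.nalt hA t) ∈ h.MA A :=
  ⟨h.rho_mem _, fun w hw => by rw [h.rho_apply, emb_apply_orth h.nalt hA t hw]⟩

theorem Ev.MA_stable (h : Ev B N) {A : Submodule F V} {g : G} (hg : g ∈ h.MA A) {a : V} (ha : a ∈ A) : g • a ∈ A := by
  rw [← h.orth_orth A, h.mem_orth]
  intro w hw
  have h1 := h.isom hg.1 a w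
  rw [hg.2 w hw] at h1
  rw [h1, h.symm]
  exact (h.mem_orth.1 hw) a ha

theorem Ev.exists_emb (h : Ev B N) {A : Submodule F V} (hA : NAlt (B.restrict A)) {g : G} (hg : g ∈ h.MA A) :
    ∃ t, h.rho (emb h.nalt hA t) = g := by
  have hg' : g⁻¹ ∈ h.MA A := (h.MA A).inv_mem hg
  let T : A ≃ₗ[F] A :=
    { toFun := fun a => ⟨g • (a : V), h.MA_stable hg a.2⟩
      invFun := fun a => ⟨g⁻¹ • (a : V), h.MA_stable hg' a.2⟩
      left_inv := fun a => Subtype.ext (inv_smul_smul _ _)
      right_inv := fun a => Subtype.ext (smul_inv_smul _ _)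
      map_add' := fun a b => Subtype.ext (smul_add _ _ _)
      map_smul' := fun c a => Subtype.ext (h.lin hg.1 c a) }
  refine ⟨⟨T, fun u v => h.isom hg.1 u v⟩, h.ext fun v => ?_⟩
  obtain ⟨a, ha, b, hb, rfl⟩ := h.exists_dec hA v
  rw [smul_add, smul_add, h.rho_apply, h.rho_apply, emb_apply_orth h.nalt hA _ hb, hg.2 b hb]
  congr 1
  exact emb_apply_mem h.nalt hA _ ⟨a, ha⟩

/-- `M_A` is the isometry group of `A` -/
noncomputable def Ev.MAequiv (h : Ev B N) {A : Submodule F V} (hA : NAlt (B.restrict A)) :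
    Sp (B.restrict A) ≃* h.MA A :=
  MulEquiv.ofBijective ((h.rho.comp (emb h.nalt hA)).codRestrict (h.MA A) (h.rho_emb_mem hA))
    ⟨fun s t hst => emb_injective h.nalt hA (h.rho_injective (congrArg Subtype.val hst)),
      fun g => by
        obtain ⟨t, ht⟩ := h.exists_emb hA g.2
        exact ⟨t, Subtype.ext ht⟩⟩

theorem Ev.tr_mem_MA (h : Ev B N) {A : Submodule F V} {a : V} (ha : a ∈ A) (c : F) : h.tr a c ∈ h.MA A :=
  ⟨h.tr_mem a c, fun w hw => by
    rw [h.tr_apply, (h.mem_orth.1 hw) a ha, mul_zero, zero_smul, add_zero]⟩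

theorem Ev.sr_mem_MA (h : Ev B N) {A : Submodule F V} {e f : V} (hef : B e f = 0) (he : e ∈ A) (hf : f ∈ A) :
    h.sr hef ∈ h.MA A :=
  ⟨h.sr_mem hef, fun w hw => by
    rw [h.sr_apply, (h.mem_orth.1 hw) e he, (h.mem_orth.1 hw) f hf, zero_smul, zero_smul, add_zero, add_zero]⟩

/-- commuting with the transvections of `A` -/
theorem Ev.fix_of_comm (h : Ev B N) {x : G} {a : V} (hx : x * h.tr a 1 = h.tr a 1 * x) : x • a = a := by
  by_cases ha : a = 0
  · rw [ha, smul_zero]
  obtain ⟨σ, h1, h2⟩ := h.semi x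
  have h3 := h.conj_tr h1 h2 a 1
  rw [map_one, hx, mul_inv_cancel_right] at h3
  obtain ⟨v, hv⟩ : ∃ v, B v a = 1 := by
    obtain ⟨y, hy⟩ := h.nalt.exists_one ha
    exact ⟨y, by rw [h.symm, hy]⟩
  have h4 : ∀ v : V, B v a • a = B v (x • a) • (x • a) := by
    intro v
    have h5 := h.tr_apply a 1 v
    rw [h3, h.tr_apply, one_mul, one_mul] at h5
    exact (add_left_cancel h5).symm
  obtain ⟨l, hl⟩ : ∃ l, l = B v (x • a) := ⟨_, rfl⟩
  have h5 := h4 v
  rw [hv, one_smul, ← hl] at h5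
  have hl0 : l ≠ 0 := by
    rintro rfl
    rw [zero_smul] at h5
    exact ha h5
  have h6 : B v a = l * B v (x • a) := by
    conv_lhs => rw [h5]
    rw [LinearMap.map_smul (B v) l (x • a), smul_eq_mul]
  rw [hv, ← hl] at h6
  have h7 : (l - 1) * (l - 1) = 0 := by linear_combination -h6 + (1 - l) * h.two
  have h8 : l = 1 := by
    have := mul_self_eq_zero.1 h7
    linear_combination this
  rw [h8, one_smul] at h5
  exact h5.symm

/-- trivial on a nonzero subspace implies linear -/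
theorem Ev.mem_of_fix (h : Ev B N) {A : Submodule F V} (hA : A ≠ ⊥) {x : G} (hx : ∀ a ∈ A, x • a = a) : x ∈ N := by
  obtain ⟨a, ha, ha0⟩ := Submodule.exists_mem_ne_zero_of_ne_bot hA
  obtain ⟨σ, h1, -⟩ := h.semi x
  refine (h.mem x).2 fun c v => ?_
  rw [h1]
  have h3 := h1 c a
  rw [hx a ha, hx _ (Submodule.smul_mem _ c ha)] at h3
  have h4 : (c - σ c) • a = 0 := by rw [sub_smul, ← h3, sub_self]
  rcases smul_eq_zero.1 h4 with h5 | h5
  · rw [← sub_eq_zero.1 h5]
  · exact absurd h5 ha0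

/-- trivial on `A` and on `Aᗮ` implies trivial -/
theorem Ev.eq_one_of_fix (h : Ev B N) {A : Submodule F V} (hA : NAlt (B.restrict A)) {x : G} (hx : ∀ a ∈ A, x • a = a)
    (hx' : ∀ a ∈ B.orthogonal A, x • a = a) : x = 1 := by
  apply h.inj
  intro v
  obtain ⟨a, ha, b, hb, rfl⟩ := h.exists_dec hA v
  rw [smul_add, hx a ha, hx' b hb]

theorem Ev.MA_ne (h : Ev B N) {A : Submodule F V} (hA1 : A ≠ ⊤) : h.MA A ≠ N := by
  intro hM
  have h1 : B.orthogonal A ≠ ⊥ := by
    intro h1
    apply hA1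
    have h2 := h.orth_orth A
    rw [h1] at h2
    rw [← h2, eq_top_iff]
    intro v _
    rw [h.mem_orth]
    intro a ha
    rw [(Submodule.mem_bot F).1 ha, map_zero]
  obtain ⟨w, hw, hw0⟩ := Submodule.exists_mem_ne_zero_of_ne_bot h1
  obtain ⟨v, hv⟩ := h.nalt.exists_one hw0
  have h2 : h.tr v 1 ∈ h.MA A := by rw [hM]; exact h.tr_mem v 1
  have h3 := h2.2 w hw
  rw [h.tr_apply, hv, one_mul, one_smul, add_eq_left] at h3
  rw [h3, map_zero] at hv
  exact zero_ne_one hv

/-- a semilinear isometry preserving `A` normalises `M_A` -/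
theorem Ev.MA_norm [Finite G] (h : Ev B N) {A : Submodule F V} {x : G} (hx : ∀ v ∈ A, x • v ∈ A)
    (hN : ∀ u ∈ N, x * u * x⁻¹ ∈ N) {u : G} (hu : u ∈ h.MA A) : x * u * x⁻¹ ∈ h.MA A :=
  ⟨hN u hu.1, fun w hw => by
    rw [mul_smul, mul_smul, hu.2 _ (inv_stable (h.orth_inv hx) w hw), smul_inv_smul]⟩

/-- two commuting isometries of a plane, the first one a nontrivial involution: the second one has order at most two -/
theorem Ev.plane (h : Ev B N) {P : Submodule F V} (hP : NAlt (B.restrict P)) (hd : finrank F P = 2) {u x : G}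
    (hu : u ∈ N) (hx : x ∈ N) (huP : ∀ v ∈ P, u • v ∈ P) (hxP : ∀ v ∈ P, x • v ∈ P) (hu2 : u * u = 1)
    (hcomm : u * x = x * u) (hne : ∃ v ∈ P, u • v ≠ v) : ∀ v ∈ P, x • x • v = v := by
  obtain ⟨v₀, hv₀, hne⟩ := hne
  obtain ⟨p, hp⟩ : ∃ p, p = u • v₀ + v₀ := ⟨_, rfl⟩
  have hpP : p ∈ P := by rw [hp]; exact Submodule.add_mem _ (huP _ hv₀) hv₀
  have hp0 : p ≠ 0 := by
    intro h0
    apply hne
    rw [hp] at h0
    rw [← sub_eq_zero, sub_eq_add_neg, h.vneg]
    exact h0
  have hup : u • p = p := by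
    rw [hp, smul_add, ← mul_smul, hu2, one_smul, add_comm]
  obtain ⟨v, hvP, hv⟩ : ∃ v ∈ P, B v p = 1 := by
    obtain ⟨y, hy⟩ := hP.exists_one (x := ⟨p, hpP⟩) (fun h0 => hp0 (congrArg Subtype.val h0))
    exact ⟨y, y.2, by rw [h.symm]; exact hy⟩
  -- `v, p` generate the plane
  have hspan : ∀ w ∈ P, ∃ a b : F, w = a • v + b • p := by
    intro w hw
    have hle : span F {v, p} ≤ P := by
      rw [Submodule.span_le]
      rintro z (rfl | rfl)
      · exact hvP
      · exact hpP
    have hli : LinearIndependent F ![v, p] := by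
      rw [LinearIndependent.pair_iff]
      intro s t hst
      have h1 : B (s • v + t • p) p = 0 := by rw [hst, map_zero, LinearMap.zero_apply]
      rw [map_add, LinearMap.add_apply, LinearMap.map_smul B s v, LinearMap.map_smul B t p, LinearMap.smul_apply,
        LinearMap.smul_apply, hv, h.self, smul_zero, add_zero, smul_eq_mul, mul_one] at h1
      refine ⟨h1, ?_⟩
      rw [h1, zero_smul, zero_add] at hst
      exact (smul_eq_zero.1 hst).resolve_right hp0
    have h2 : finrank F (span F {v, p}) = 2 := by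
      have h5 := finrank_span_eq_card hli
      have hr : Set.range ![v, p] = {v, p} := by
        simp [Matrix.range_cons, Matrix.range_empty, Set.pair_comm]
      rw [hr, Fintype.card_fin] at h5
      exact h5
    have h3 : span F {v, p} = P := Submodule.eq_of_le_of_finrank_eq hle (by rw [h2, hd])
    rw [← h3] at hw
    obtain ⟨a, b, hab⟩ := mem_span_pair.1 hw
    exact ⟨a, b, hab.symm⟩
  -- `u v = v + c p`
  obtain ⟨c, hc⟩ : ∃ c : F, u • v = v + c • p := by
    obtain ⟨a, b, hab⟩ := hspan _ (huP v hvP)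
    have h1 := h.isom hu v p
    rw [hup, hab, map_add, LinearMap.add_apply, LinearMap.map_smul B a v, LinearMap.map_smul B b p, LinearMap.smul_apply,
      LinearMap.smul_apply, hv, h.self, smul_zero, add_zero, smul_eq_mul, mul_one] at h1
    exact ⟨b, by rw [hab, h1, one_smul]⟩
  have hc0 : c ≠ 0 := by
    rintro rfl
    rw [zero_smul, add_zero] at hc
    obtain ⟨a, b, hab⟩ := hspan v₀ hv₀
    apply hne
    rw [hab, smul_add, h.lin hu, h.lin hu, hc, hup]
  -- `x p = l p`
  obtain ⟨l, hl⟩ : ∃ l : F, x • p = l • p := by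
    obtain ⟨a, b, hab⟩ := hspan _ (hxP p hpP)
    have h1 : u • x • p = x • p := by rw [← mul_smul, hcomm, mul_smul, hup]
    rw [hab, smul_add, h.lin hu, h.lin hu, hc, hup, smul_add, add_assoc] at h1
    have h2 := add_left_cancel h1
    rw [add_eq_right, smul_smul] at h2
    have h3 := (smul_eq_zero.1 h2).resolve_right hp0
    have h4 := (mul_eq_zero.1 h3).resolve_right hc0
    exact ⟨b, by rw [hab, h4, zero_smul, zero_add]⟩
  obtain ⟨a, b, hab⟩ := hspan _ (hxP v hvP)
  have h1 := h.isom hx v p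
  rw [hl, hab, hv, LinearMap.map_smul (B (a • v + b • p)) l p, map_add, LinearMap.add_apply, LinearMap.map_smul B a v,
    LinearMap.map_smul B b p, LinearMap.smul_apply, LinearMap.smul_apply, hv, h.self] at h1
  simp only [smul_eq_mul, mul_one, mul_zero, add_zero] at h1
  have h2 : u • x • v = x • u • v := by rw [← mul_smul, hcomm, mul_smul]
  rw [hc, smul_add, h.lin hx, hl, hab, smul_add, h.lin hu, h.lin hu, hc, hup, smul_add] at h2
  have h3 : (a * c - c * l) • p = 0 := by
    rw [sub_smul, mul_smul, mul_smul]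
    have h4 : a • v + a • c • p + b • p - (a • v + b • p + c • l • p) = 0 := by rw [h2, sub_self]
    rw [← h4]; abel
  have h4 := (smul_eq_zero.1 h3).resolve_right hp0
  have h5 : a = l := by
    have : (a - l) * c = 0 := by linear_combination h4
    have := (mul_eq_zero.1 this).resolve_right hc0
    linear_combination this
  have h6 : l = 1 := by
    rw [h5] at h1
    have : (l - 1) * (l - 1) = 0 := by linear_combination h1 + (1 - l) * h.two
    have := mul_self_eq_zero.1 this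
    linear_combination this
  rw [h6, one_smul] at hl
  rw [h5, h6, one_smul] at hab
  intro w hw
  obtain ⟨s, t, rfl⟩ := hspan w hw
  rw [smul_add, smul_add, h.lin hx, h.lin hx, h.lin hx, h.lin hx, hl, hl, hab, smul_add, h.lin hx, hl, hab]
  have h7 := h.vadd_self (b • p)
  rw [add_assoc, h7, add_zero]

end

section rules

variable {F V G Ω S : Type} [Field F] [Finite F] [AddCommGroup V] [Module F V] [FiniteDimensional F V] [Group G] [Finite G]
  [DistribMulAction G V] {B : LinearMap.BilinForm F V} {N : Subgroup G} [MulAction G Ω] [Group S] [Finite S]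
  {ι : Type} [Finite ι] {x : ι → G} {r : ι → ℕ}

/-- a simple noncommutative subgroup is perfect -/
theorem perfect_of_simple {M : Subgroup G} (h1 : IsSimpleGroup M) (h2 : ¬ IsMulCommutative M) : ⁅M, M⁆ = M := by
  have h3 : commutator M = ⊤ := by
    rcases h1.eq_bot_or_eq_top_of_normal (commutator M) inferInstance with h | h
    · exfalso
      apply h2
      constructor
      constructor
      intro a b
      have h4 := Subgroup.commutator_mem_commutator (H₁ := (⊤ : Subgroup M)) (H₂ := ⊤) (Subgroup.mem_top a)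
        (Subgroup.mem_top b)
      rw [← commutator_def, h, Subgroup.mem_bot] at h4
      exact commutatorElement_eq_one_iff_mul_comm.1 h4
    · exact h
  have h4 := Subgroup.map_commutator (⊤ : Subgroup M) ⊤ M.subtype
  rw [← commutator_def, h3, ← MonoidHom.range_eq_map, Subgroup.range_subtype] at h4
  exact h4.symm

/-- **Step 1.** -/
theorem Ev.step1 (h : Ev B N) (hE : Env G Ω N) (hIH : IH (Nat.card S)) (eS : N ≃* S) (hx : PF x r) (hcov : Cov Ω x)
    {A : Submodule F V} (hA : NAlt (B.restrict A)) (hinv : ∀ i, ∀ v ∈ A, x i • v ∈ A) (hA1 : A ≠ ⊤)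
    (hdim : 4 ≤ finrank F A) (hF : 6 ≤ finrank F A ∨ 3 ≤ Nat.card F) (ω : Ω) :
    (∀ g ∈ h.MA A, g • ω = ω) ∨ ∃ j, (∀ a ∈ A, x j • a = a) ∧ x j • ω = ω := by
  have hNn := hE.norm
  obtain ⟨m, hm⟩ := exists_dim hA
  have hS : SimpCl (h.MA A) := SimpCl.congr (h.MAequiv hA) (simpCl_Sp hA h.two (by omega))
  have hle : h.MA A ≤ N := fun g hg => hg.1
  rcases mrule_IH hIH eS hle (h.MA_ne hA1) (perfect_of_simple hS.simple hS.ncomm) (MonoidHom.id _)
    Function.surjective_id (by rw [MonoidHom.ker_id]; exact bot_le) hS.simple hS.ncomm hS.cl hS.nexc hx hcov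
    (fun i => by
      rw [Subgroup.mem_normalizer_iff]
      have key : ∀ {y : G}, (∀ v ∈ A, y • v ∈ A) → ∀ u ∈ h.MA A, y * u * y⁻¹ ∈ h.MA A := fun hy u hu =>
        h.MA_norm hy (fun u hu => hNn.conj_mem u hu _) hu
      intro u
      refine ⟨key (hinv i) u, fun hu => ?_⟩
      have h3 := key (inv_stable (hinv i)) _ hu
      rwa [inv_inv, show (x i)⁻¹ * (x i * u * (x i)⁻¹) * x i = u by group] at h3) ω with h1 | ⟨j, h1, h2⟩
  · exact Or.inl fun g hg => h1 hg
  · exact Or.inr ⟨j, fun a ha => h.fix_of_comm (h1 _ (h.tr_mem_MA ha 1)), h2⟩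

/-- a totally isotropic plane -/
theorem Ev.exists_iso (h : Ev B N) {A : Submodule F V} (hdim : 4 ≤ finrank F A) :
    ∃ e f : V, e ∈ A ∧ f ∈ A ∧ B e f = 0 ∧ ∀ a b : F, a • e + b • f = 0 → a = 0 ∧ b = 0 := by
  have hA : A ≠ ⊥ := by
    rintro rfl
    rw [finrank_bot] at hdim
    omega
  obtain ⟨e, he, he0⟩ := Submodule.exists_mem_ne_zero_of_ne_bot hA
  -- the kernel of `B e` on `A`
  let φ : A →ₗ[F] F := (B e).comp A.subtype
  have h1 : 3 ≤ finrank F (LinearMap.ker φ) := by
    have h2 := LinearMap.finrank_range_add_finrank_ker φ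
    have h3 : finrank F (LinearMap.range φ) ≤ 1 := by
      have := Submodule.finrank_le (LinearMap.range φ)
      rwa [finrank_self] at this
    omega
  obtain ⟨f, hf, hfe⟩ : ∃ f ∈ LinearMap.ker φ, (f : V) ∉ span F {e} := by
    by_contra hcon
    push Not at hcon
    have h2 : finrank F (LinearMap.ker φ) ≤ finrank F (span F {e}) := by
      have h3 : (LinearMap.ker φ).map A.subtype ≤ span F {e} := by
        rintro _ ⟨f, hf, rfl⟩
        exact hcon f hf
      have h4 := Submodule.finrank_mono h3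
      rwa [Submodule.finrank_map_subtype_eq] at h4
    have h3 := finrank_span_singleton (K := F) he0
    omega
  refine ⟨e, f, he, f.2, hf, ?_⟩
  intro a b hab
  by_cases hb : b = 0
  · rw [hb, zero_smul, add_zero] at hab
    exact ⟨(smul_eq_zero.1 hab).resolve_right he0, hb⟩
  · exfalso
    apply hfe
    rw [Submodule.mem_span_singleton]
    refine ⟨-(b⁻¹ * a), ?_⟩
    have h2 : b⁻¹ • (a • e + b • (f : V)) = 0 := by rw [hab, smul_zero]
    rw [smul_add, smul_smul, smul_smul, inv_mul_cancel₀ hb, one_smul] at h2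
    rw [neg_smul]
    exact neg_eq_of_add_eq_zero_right h2

/-- **Step 2.** -/
theorem Ev.step2 (h : Ev B N) (hE : Env G Ω N) [Nonempty Ω] (hx : PF x r) {A : Submodule F V} (hA : NAlt (B.restrict A))
    (hinv : ∀ i, ∀ v ∈ A, x i • v ∈ A) (hdim : 4 ≤ finrank F A) (hdimV : 6 ≤ finrank F V)
    (hcov : ∀ ω : Ω, (∀ e f : V, e ∈ A → f ∈ A → ∀ hef : B e f = 0, h.sr hef • ω = ω) ∨
      ∃ j, (∀ a ∈ A, x j • a = a) ∧ x j • ω = ω)
    (hbad : ∀ i j, r i = 2 → (∀ a ∈ A, x i • a = a) → (∀ a ∈ A, x j • a = a) → i = j) : False := by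
  have hNn := hE.norm
  obtain ⟨e, f, he, hf, hef, hli⟩ := h.exists_iso hdim
  have hsp : span F {e, f} ≤ A := by
    rw [Submodule.span_le]
    rintro z (rfl | rfl)
    · exact he
    · exact hf
  by_cases hex : ∃ i, r i = 2 ∧ ∀ a ∈ A, x i • a = a
  · obtain ⟨i, hi2, hi⟩ := hex
    refine h.lrs_one hE hef hli hdimV (x := x i) (fun v hv => by rw [hi v (hsp hv)]; exact hv) ?_ fun ω => ?_
    · intro hq
      apply hx.ne i
      refine h.eq_one_of_fix hA hi fun w hw => ?_
      have h1 := hq.2.2.2 w ((h.mem_orth.1 hw) e he) ((h.mem_orth.1 hw) f hf)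
      have h2 : x i • w - w ∈ B.orthogonal A := Submodule.sub_mem _ (h.orth_inv (hinv i) w hw) hw
      have h3 : x i • w - w = 0 := by
        have h4 := hsp h1
        have h5 : (⟨_, h4⟩ : A) = 0 := by
          apply hA.nd
          intro y
          exact (h.mem_orth.1 h2) y y.2
        exact congrArg Subtype.val h5
      exact sub_eq_zero.1 h3
    · rcases hcov ω with h1 | ⟨j, h1, h2⟩
      · exact Or.inl (h1 e f he hf hef)
      · have := hbad i j hi2 hi h1
        subst this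
        exact Or.inr h2
  · push Not at hex
    let κ := {j : ι // ∀ a ∈ A, x j • a = a}
    refine h.lrs hE hef hli hdimV (κ := κ) (x := fun j => x j) (r := fun j => r j) (fun j => hx.prime j)
      (fun j => hx.pow j) (fun i j => hx.comm i j) ?_ (fun j => hx.ne j) (fun j u hu => hNn.conj_mem u hu _)
      (fun j v hv => by rw [j.2 v (hsp hv)]; exact hv) fun ω => ?_
    · rintro ⟨j, hj⟩ hr2
      obtain ⟨a, ha, hne⟩ := hex j hr2
      exact hne (hj a ha)
    · rcases hcov ω with h1 | ⟨j, h1, h2⟩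
      · exact Or.inl (h1 e f he hf hef)
      · exact Or.inr ⟨⟨j, h1⟩, h2⟩

theorem pow_of_sq {x : G} {r : ℕ} (hr : r.Prime) (h2 : r ≠ 2) (hx : x ^ r = 1) {v : V} (hv : x • x • v = v) :
    x • v = v := by
  have hodd : Odd r := hr.odd_of_ne_two h2
  obtain ⟨k, hk⟩ := hodd
  have h1 : ∀ n : ℕ, x ^ (2 * n) • v = v := by
    intro n
    induction n with
    | zero => simp
    | succ n ih =>
      rw [show 2 * (n + 1) = 2 * n + 2 by ring, pow_add, pow_two, mul_smul, mul_smul, hv, ih]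
  have h3 : x ^ r • v = v := by rw [hx, one_smul]
  rw [hk, pow_succ', mul_smul, h1] at h3
  exact h3

/-- **Decompositions are impossible** for `|F| ≥ 3`; half of the argument -/
theorem Ev.dec_aux (h : Ev B N) (hE : Env G Ω N) [Nonempty Ω] (hIH : IH (Nat.card S)) (eS : N ≃* S) (hx : PF x r)
    (hcov : Cov Ω x) {A : Submodule F V} (hA : NAlt (B.restrict A)) (hinv : ∀ i, ∀ v ∈ A, x i • v ∈ A) (hA1 : A ≠ ⊤)
    (hdim : 4 ≤ finrank F A) (hdimV : 6 ≤ finrank F V) (hF : 6 ≤ finrank F A ∨ 3 ≤ Nat.card F) :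
    ∃ i j, i ≠ j ∧ r i = 2 ∧ (∀ a ∈ A, x i • a = a) ∧ (∀ a ∈ A, x j • a = a) := by
  by_contra hcon
  push Not at hcon
  refine h.step2 hE hx hA hinv hdim hdimV (fun ω => ?_) fun i j h1 h2 h3 => ?_
  · rcases h.step1 hE hIH eS hx hcov hA hinv hA1 hdim hF ω with h1 | h1
    · exact Or.inl fun e f he hf hef => h1 _ (h.sr_mem_MA hef he hf)
    · exact Or.inr h1
  · by_contra hne
    obtain ⟨a, ha, h4⟩ := hcon i j hne h1 h2
    exact h4 (h3 a ha)

theorem Ev.orth_ne_top (h : Ev B N) {A : Submodule F V} (hA0 : A ≠ ⊥) : B.orthogonal A ≠ ⊤ := by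
  intro h1
  apply hA0
  rw [← h.orth_orth A, h1, eq_bot_iff]
  intro v hv
  rw [Submodule.mem_bot]
  exact h.nd v fun w => (h.mem_orth.1 hv) w trivial

theorem Ev.orth_ne_bot (h : Ev B N) {A : Submodule F V} (hA1 : A ≠ ⊤) : B.orthogonal A ≠ ⊥ := by
  intro h1
  apply hA1
  rw [← h.orth_orth A, h1, eq_top_iff]
  intro v _
  rw [h.mem_orth]
  intro a ha
  rw [(Submodule.mem_bot F).1 ha, map_zero]

/-- in the bad case of `dec_aux` the orthogonal complement has dimension at least four -/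
theorem Ev.bad_dim (h : Ev B N) (hx : PF x r) {A : Submodule F V} (hA : NAlt (B.restrict A))
    (hinv : ∀ i, ∀ v ∈ A, x i • v ∈ A) (hA0 : A ≠ ⊥) {i j : ι} (hij : i ≠ j) (hi : r i = 2)
    (h1 : ∀ a ∈ A, x i • a = a) (h2 : ∀ a ∈ A, x j • a = a) : 4 ≤ finrank F (B.orthogonal A) := by
  by_contra hlt
  obtain ⟨m, hm⟩ := exists_dim (h.nalt_orth hA)
  have hu2 : x i * x i = 1 := by
    have := hx.pow i
    rwa [hi, pow_two] at this
  have hj2 : r j ≠ 2 := fun h3 => hij (hx.inj (by rw [hi, h3]))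
  have hm0 : m ≠ 0 := by
    rintro rfl
    apply hx.ne i
    refine h.eq_one_of_fix hA h1 fun w hw => ?_
    have h3 : B.orthogonal A = ⊥ := Submodule.finrank_eq_zero.1 (by omega)
    rw [h3, Submodule.mem_bot] at hw
    rw [hw, smul_zero]
  have hne : ∃ v ∈ B.orthogonal A, x i • v ≠ v := by
    by_contra hcon
    push Not at hcon
    exact hx.ne i (h.eq_one_of_fix hA h1 hcon)
  have h3 := h.plane (h.nalt_orth hA) (by omega) (h.mem_of_fix hA0 h1) (h.mem_of_fix hA0 h2)
    (h.orth_inv (hinv i)) (h.orth_inv (hinv j)) hu2 (hx.comm i j) hne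
  exact hx.ne j (h.eq_one_of_fix hA h2 fun v hv => pow_of_sq (hx.prime j) hj2 (hx.pow j) (h3 v hv))

/-- **Decompositions are impossible** for `|F| ≥ 3`. -/
theorem Ev.dec_rule (h : Ev B N) (hE : Env G Ω N) [Nonempty Ω] (hIH : IH (Nat.card S)) (eS : N ≃* S) (hx : PF x r)
    (hcov : Cov Ω x) (hdimV : 6 ≤ finrank F V) (hF : 3 ≤ Nat.card F) {A : Submodule F V} (hA : NAlt (B.restrict A))
    (hinv : ∀ i, ∀ v ∈ A, x i • v ∈ A) (hA0 : A ≠ ⊥) (hA1 : A ≠ ⊤) : False := by
  -- the case of a subspace of dimension at least four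
  have key : ∀ A : Submodule F V, NAlt (B.restrict A) → (∀ i, ∀ v ∈ A, x i • v ∈ A) → A ≠ ⊥ → A ≠ ⊤ →
      4 ≤ finrank F A → False := by
    intro A hA hinv hA0 hA1 hdim
    obtain ⟨i, j, hij, hi, h1, h2⟩ := h.dec_aux hE hIH eS hx hcov hA hinv hA1 hdim hdimV (Or.inr hF)
    have h3 := h.bad_dim hx hA hinv hA0 hij hi h1 h2
    obtain ⟨i', j', hij', hi', h1', h2'⟩ := h.dec_aux hE hIH eS hx hcov (h.nalt_orth hA)
      (fun i => h.orth_inv (hinv i)) (h.orth_ne_top hA0) h3 hdimV (Or.inr hF)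
    have h4 : i' = i := hx.inj (by rw [hi, hi'])
    subst h4
    exact hx.ne i' (h.eq_one_of_fix hA h1 h1')
  have hsum := h.finrank_add A
  obtain ⟨m, hm⟩ := exists_dim hA
  obtain ⟨m', hm'⟩ := exists_dim (h.nalt_orth hA)
  by_cases hd : 4 ≤ finrank F A
  · exact key A hA hinv hA0 hA1 hd
  · exact key _ (h.nalt_orth hA) (fun i => h.orth_inv (hinv i)) (h.orth_ne_bot hA1) (h.orth_ne_top hA0) (by omega)

end rules

end Cfsg.Agent.H385.RC
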