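import Cfsg.Agent.H385.RC.Ev
import Cfsg.Agent.H106.RC.Red
import Cfsg.Agent.H520.RC.SpId

/-!
# S3510, symplectic groups in characteristic two: isometry groups of alternating forms are simple (helper385)

* `SimpCl.congr`;
* `simpCl_Sp` : `Sp B` is simple, classical, not exceptional (char 2, dimension `≥ 4`, not `Sp₄(2)`; or dimension 2, `|F| > 4`)
* `Ev.nalt`, `Ev.rho : Sp B →* G` with range `N`.
-/

set_option autoImplicit false
set_option linter.unusedVariables false

namespace Cfsg.Agent.H385.RC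

open Cfsg Cfsg.Agent.H106.RC Cfsg.Agent.H520.RC Module

theorem SimpCl.congr {H H' : Type*} [Group H] [Group H'] (e : H ≃* H') (h : SimpCl H) : SimpCl H' :=
  ⟨isSimple_cgr e h.simple, notComm_cgr e h.ncomm, Cl.cgr e h.cl, fun hx => h.nexc (Exc.cgr e.symm hx)⟩

theorem center_Sp {F V : Type*} [Field F] [AddCommGroup V] [Module F V] [FiniteDimensional F V] [Finite F]
    {B : LinearMap.BilinForm F V} (hB : NAlt B) (h2 : (2 : F) = 0) : Subgroup.center (Sp B) = ⊥ := by
  rw [eq_bot_iff]
  intro t ht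
  obtain ⟨a, ha⟩ := (mem_center_Sp hB).1 ht
  rw [Subgroup.mem_bot]
  apply Subtype.ext
  apply LinearEquiv.ext
  intro v
  show t.1 v = v
  rw [ha]
  by_cases hV : ∀ w : V, w = 0
  · rw [hV v, smul_zero]
  · push Not at hV
    obtain ⟨w, hw⟩ := hV
    obtain ⟨z, hz⟩ := hB.exists_one hw
    have h1 : B (t.1 w) (t.1 z) = B w z := t.2 w z
    rw [ha, ha, map_smul, LinearMap.map_smul₂, smul_eq_mul, smul_eq_mul, hz, mul_one] at h1
    have h3 : (a - 1) * (a - 1) = 0 := by linear_combination h1 + (1 - a) * h2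
    have h4 : a = 1 := by
      have := mul_self_eq_zero.1 h3
      linear_combination this
    rw [h4, one_smul]

/-- the quotient by the (trivial) centre -/
noncomputable def quotEquiv {H : Type*} [Group H] (h : Subgroup.center H = ⊥) : H ≃* H ⧸ Subgroup.center H :=
  MulEquiv.ofBijective (QuotientGroup.mk' (Subgroup.center H))
    ⟨by rw [← MonoidHom.ker_eq_bot_iff, QuotientGroup.ker_mk', h], QuotientGroup.mk'_surjective _⟩

theorem simpCl_Sp {F V : Type} [Field F] [Finite F] [AddCommGroup V] [Module F V] [FiniteDimensional F V]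
    {B : LinearMap.BilinForm F V} (hB : NAlt B) (h2 : (2 : F) = 0)
    (h : 6 ≤ finrank F V ∨ (finrank F V = 4 ∧ 3 ≤ Nat.card F) ∨ (finrank F V = 2 ∧ 4 < Nat.card F)) :
    SimpCl (Sp B) := by
  have h' : 6 ≤ finrank F V ∨ (finrank F V = 4 ∧ 3 ≤ Nat.card F) ∨ (finrank F V ≠ 0 ∧ 4 ≤ Nat.card F) := by
    rcases h with h | h | h
    · exact Or.inl h
    · exact Or.inr (Or.inl h)
    · exact Or.inr (Or.inr ⟨by omega, by omega⟩)
  have h3 : ¬ Exc (Sp B ⧸ Subgroup.center (Sp B)) := by
    rcases h with h | h | h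
    · exact not_exc_Sp hB (Or.inl h)
    · exact not_exc_Sp hB (Or.inr h)
    · have h5 : ¬ Odd (Nat.card F) := by
        intro ho
        have : Fintype F := Fintype.ofFinite F
        have hc : CharP F 2 := CharTwo.of_one_ne_zero_of_two_eq_zero one_ne_zero h2
        obtain ⟨n, -, hn⟩ := FiniteField.card F 2
        rw [Nat.card_eq_fintype_card, hn, Nat.odd_pow_iff n.ne_zero] at ho
        exact absurd ho (by decide)
      exact not_exc_Sp2 hB h.1 (by omega) (fun h6 => h5 (by rw [h6]; decide)) (fun h6 => h5 (by rw [h6]; decide))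
  exact SimpCl.congr (quotEquiv (center_Sp hB h2)).symm ⟨simple_Sp hB h', ncomm_Sp hB h', cl_Sp hB h', h3⟩

section env

variable {F V G : Type*} [Field F] [AddCommGroup V] [Module F V] [Group G] [DistribMulAction G V]
  {B : LinearMap.BilinForm F V} {N : Subgroup G}

theorem Ev.nalt (h : Ev B N) : NAlt B := ⟨h.alt, h.nd⟩

/-- the isometry group inside `G` -/
noncomputable def Ev.rho (h : Ev B N) : Sp B →* G where
  toFun t := (h.surjN t.1 t.2).choose
  map_one' := by
    apply h.ext
    intro v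
    rw [(h.surjN (1 : Sp B).1 (1 : Sp B).2).choose_spec.2, one_smul]
    rfl
  map_mul' s t := by
    apply h.ext
    intro v
    rw [mul_smul, (h.surjN (s * t).1 (s * t).2).choose_spec.2, (h.surjN s.1 s.2).choose_spec.2,
      (h.surjN t.1 t.2).choose_spec.2]
    rfl

theorem Ev.rho_apply (h : Ev B N) (t : Sp B) (v : V) : h.rho t • v = t.1 v := (h.surjN t.1 t.2).choose_spec.2 v

theorem Ev.rho_mem (h : Ev B N) (t : Sp B) : h.rho t ∈ N := (h.surjN t.1 t.2).choose_spec.1

theorem Ev.rho_injective (h : Ev B N) : Function.Injective h.rho := by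
  intro s t hst
  apply Subtype.ext
  apply LinearEquiv.ext
  intro v
  rw [← h.rho_apply, ← h.rho_apply, hst]

theorem Ev.rho_surj (h : Ev B N) {g : G} (hg : g ∈ N) : ∃ t, h.rho t = g := by
  refine ⟨⟨h.le hg, fun u v => h.isom hg u v⟩, h.ext fun v => ?_⟩
  rw [h.rho_apply]
  rfl

theorem Ev.range_rho (h : Ev B N) : h.rho.range = N := by
  apply le_antisymm
  · rintro _ ⟨t, rfl⟩
    exact h.rho_mem t
  · intro g hg
    exact h.rho_surj hg

/-- `N` is the isometry group -/
noncomputable def Ev.equiv (h : Ev B N) : Sp B ≃* N :=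
  (MonoidHom.ofInjective h.rho_injective).trans (MulEquiv.subgroupCongr h.range_rho)

end env

end Cfsg.Agent.H385.RC
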