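import Cfsg.Agent.H385.RC.Iso

/-!
# S3510, symplectic groups in characteristic two: the short root rule (helper385)

`E = ⟨e, f⟩` a totally isotropic plane, `QE e f` the elements of `N` trivial on `E` and on `Eᗮ / E`, dimension `≥ 6`.

* `Ev.sr_mem_cmm` : `sr e f ∈ [QE, x]` for every `x` with `x E ≤ E`, `x ∉ QE`.
* `Ev.lrs`, `Ev.lrs_one` : the rules.
-/

set_option autoImplicit false
set_option linter.unusedVariables false
set_option linter.unusedSimpArgs false

namespace Cfsg.Agent.H385.RC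

open Cfsg Cfsg.Agent.H106.RC Cfsg.Agent.H520.RC Cfsg.Agent.H380.RC Module Submodule

section

variable {F V G : Type*} [Field F] [AddCommGroup V] [Module F V] [Group G] [DistribMulAction G V]
  {B : LinearMap.BilinForm F V} {N : Subgroup G}

/-- an element of `N` fixing `e` and `f` is trivial on the plane -/
theorem Ev.fix_span (h : Ev B N) {g : G} (hg : g ∈ N) {e f : V} (he : g • e = e) (hf : g • f = f) {v : V}
    (hv : v ∈ span F {e, f}) : g • v = v := by
  obtain ⟨a, b, rfl⟩ := mem_span_pair.1 hv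
  rw [smul_add, h.lin hg, h.lin hg, he, hf]

/-- orthogonality to the plane -/
theorem Ev.orth_span (h : Ev B N) {e f : V} {w v : V} (hwe : B w e = 0) (hwf : B w f = 0) (hv : v ∈ span F {e, f}) :
    B w v = 0 := by
  obtain ⟨a, b, rfl⟩ := mem_span_pair.1 hv
  rw [map_add, map_smul, map_smul, hwe, hwf, smul_zero, smul_zero, add_zero]

theorem Ev.ti_span (h : Ev B N) {e f : V} (hef : B e f = 0) {u v : V} (hu : u ∈ span F {e, f})
    (hv : v ∈ span F {e, f}) : B u v = 0 := by
  obtain ⟨a, b, rfl⟩ := mem_span_pair.1 hu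
  have hfe : B f e = 0 := by rw [h.symm, hef]
  apply h.orth_span _ _ hv <;>
    simp only [map_add, map_smul, LinearMap.add_apply, LinearMap.smul_apply, h.self, hef, hfe, smul_zero, add_zero]

/-- the unipotent radical of the stabiliser of the plane `⟨e, f⟩` -/
def Ev.QE (h : Ev B N) (e f : V) : Subgroup G where
  carrier := {g | g ∈ N ∧ g • e = e ∧ g • f = f ∧ ∀ v : V, B v e = 0 → B v f = 0 → g • v - v ∈ span F {e, f}}
  one_mem' := ⟨N.one_mem, one_smul _ _, one_smul _ _, fun v _ _ => by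
    rw [one_smul, sub_self]; exact Submodule.zero_mem _⟩
  mul_mem' := by
    rintro a b ⟨ha, ha1, ha2, ha3⟩ ⟨hb, hb1, hb2, hb3⟩
    refine ⟨N.mul_mem ha hb, by rw [mul_smul, hb1, ha1], by rw [mul_smul, hb2, ha2], fun v h1 h2 => ?_⟩
    have h3 : (a * b) • v - v = a • (b • v - v) + (a • v - v) := by
      rw [mul_smul, smul_sub]; abel
    rw [h3, h.fix_span ha ha1 ha2 (hb3 v h1 h2)]
    exact Submodule.add_mem _ (hb3 v h1 h2) (ha3 v h1 h2)
  inv_mem' := by
    rintro a ⟨ha, ha1, ha2, ha3⟩
    refine ⟨N.inv_mem ha, by rw [inv_smul_eq_iff, ha1], by rw [inv_smul_eq_iff, ha2], fun v h1 h2 => ?_⟩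
    have h3 : a⁻¹ • v - v = -(a • v - v) := by
      have h4 := h.fix_span ha ha1 ha2 (ha3 v h1 h2)
      have h5 : a⁻¹ • (a • v - v) = a • v - v := by rw [inv_smul_eq_iff, h4]
      rw [smul_sub, inv_smul_smul] at h5
      rw [← h5]; abel
    rw [h3]
    exact Submodule.neg_mem _ (ha3 v h1 h2)

theorem Ev.mem_QE (h : Ev B N) {e f : V} {g : G} : g ∈ h.QE e f ↔
    g ∈ N ∧ g • e = e ∧ g • f = f ∧ ∀ v : V, B v e = 0 → B v f = 0 → g • v - v ∈ span F {e, f} := Iff.rfl

theorem Ev.QE_comm (h : Ev B N) {e f : V} (hef : B e f = 0) {u : G} (hu : u ∈ h.QE e f) :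
    u * h.sr hef = h.sr hef * u := by
  obtain ⟨-, h1, h2, -⟩ := hu
  have h3 := h.conj_sr u hef
  have h4 : h.sr (h.form_zero u hef) = h.sr hef := by
    apply h.ext
    intro v
    rw [h.sr_apply, h.sr_apply, h1, h2]
  rw [h4] at h3
  exact mul_inv_eq_iff_eq_mul.1 h3

theorem Ev.QE_pow (h : Ev B N) {e f : V} (hef : B e f = 0) {g : G} (hg : g ∈ h.QE e f) : g ^ 4 = 1 := by
  obtain ⟨hN, h1, h2, h3⟩ := hg
  have h4 : ∀ v : V, g • g • v - v ∈ span F {e, f} := by
    intro v
    have h5 : B (g • v - v) e = 0 := by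
      have h6 := h.isom hN v e
      rw [h1] at h6
      rw [map_sub, LinearMap.sub_apply, h6, sub_self]
    have h6 : B (g • v - v) f = 0 := by
      have h6 := h.isom hN v f
      rw [h2] at h6
      rw [map_sub, LinearMap.sub_apply, h6, sub_self]
    have h7 := h3 _ h5 h6
    have h8 : g • g • v - v = (g • (g • v - v) - (g • v - v)) + ((g • v - v) + (g • v - v)) := by
      rw [smul_sub]; abel
    rw [h8, h.vadd_self, add_zero]
    exact h7
  apply h.ext
  intro v
  rw [one_smul, show (4 : ℕ) = 2 + 2 from rfl, pow_add, pow_two, mul_smul, mul_smul, mul_smul]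
  obtain ⟨d, hd⟩ : ∃ d, d = g • g • v - v := ⟨_, rfl⟩
  have h5 : g • g • v = v + d := by rw [hd]; abel
  have h6 := h.fix_span hN h1 h2 (h4 v)
  rw [← hd] at h6
  rw [h5, smul_add, smul_add, h6, h6, h5]
  have h7 := h.vadd_self d
  rw [add_assoc, h7, add_zero]

theorem Ev.QE_isPGroup (h : Ev B N) {e f : V} (hef : B e f = 0) : IsPGroup 2 (h.QE e f) := by
  intro g
  refine ⟨2, Subtype.ext ?_⟩
  have := h.QE_pow hef g.2
  simpa using this

theorem Ev.sr_mem_QE (h : Ev B N) {e f : V} (hef : B e f = 0) {e' w : V} (he' : e' ∈ span F {e, f}) (hwe : B w e = 0)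
    (hwf : B w f = 0) (hew : B e' w = 0) : h.sr hew ∈ h.QE e f := by
  have he : e ∈ span F {e, f} := Submodule.subset_span (by simp)
  have hf : f ∈ span F {e, f} := Submodule.subset_span (by simp)
  have key : ∀ v : V, B v e = 0 → B v f = 0 → h.sr hew • v - v = B v w • e' := by
    intro v h1 h2
    rw [h.sr_apply, h.orth_span h1 h2 he', zero_smul, add_zero, add_sub_cancel_left]
  have hwe' : B e w = 0 := by rw [h.symm, hwe]
  have hwf' : B f w = 0 := by rw [h.symm, hwf]
  have hfe : B f e = 0 := by rw [h.symm, hef]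
  refine ⟨h.sr_mem hew, ?_, ?_, fun v h1 h2 => ?_⟩
  · have := key e (h.self e) hef
    rw [hwe', zero_smul, sub_eq_zero] at this
    exact this
  · have := key f hfe (h.self f)
    rw [hwf', zero_smul, sub_eq_zero] at this
    exact this
  · rw [key v h1 h2]
    exact Submodule.smul_mem _ _ he'

/-- an element preserving the plane: its inverse does, too -/
theorem inv_stable [Finite G] {E : Submodule F V} {x : G} (hx : ∀ v ∈ E, x • v ∈ E) : ∀ v ∈ E, x⁻¹ • v ∈ E := by
  intro v hv
  have h1 : ∀ n : ℕ, x ^ n • v ∈ E := by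
    intro n
    induction n with
    | zero => simpa using hv
    | succ n ih => rw [pow_succ', mul_smul]; exact hx _ ih
  have h2 : x⁻¹ = x ^ (orderOf x - 1) := by
    rw [inv_eq_iff_mul_eq_one, ← pow_succ', Nat.sub_add_cancel (orderOf_pos x), pow_orderOf_eq_one]
  rw [h2]
  exact h1 _

theorem Ev.orth_stable [Finite G] (h : Ev B N) {e f : V} {x : G} (hx : ∀ v ∈ span F {e, f}, x • v ∈ span F {e, f}) {w : V}
    (hwe : B w e = 0) (hwf : B w f = 0) {v : V} (hv : v ∈ span F {e, f}) : B (x • w) v = 0 := by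
  obtain ⟨σ, -, h2⟩ := h.semi x
  have h3 := h2 w (x⁻¹ • v)
  rw [smul_inv_smul, h.orth_span hwe hwf (inv_stable hx v hv), map_zero] at h3
  exact h3

theorem Ev.QE_norm [Finite G] (h : Ev B N) {e f : V} {x : G} (hx : ∀ v ∈ span F {e, f}, x • v ∈ span F {e, f}) {u : G}
    (hN : x * u * x⁻¹ ∈ N) (hu : u ∈ h.QE e f) : x * u * x⁻¹ ∈ h.QE e f := by
  have he : e ∈ span F {e, f} := Submodule.subset_span (by simp)
  have hf : f ∈ span F {e, f} := Submodule.subset_span (by simp)
  obtain ⟨h0, h1, h2, h3⟩ := hu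
  refine ⟨hN, ?_, ?_, fun v hve hvf => ?_⟩
  · rw [mul_smul, mul_smul, h.fix_span h0 h1 h2 (inv_stable hx _ he), smul_inv_smul]
  · rw [mul_smul, mul_smul, h.fix_span h0 h1 h2 (inv_stable hx _ hf), smul_inv_smul]
  · have h4 : (x * u * x⁻¹) • v - v = x • (u • x⁻¹ • v - x⁻¹ • v) := by
      rw [mul_smul, mul_smul, smul_sub, smul_inv_smul]
    rw [h4]
    exact hx _ (h3 _ (h.orth_stable (inv_stable hx) hve hvf he) (h.orth_stable (inv_stable hx) hve hvf hf))

/-- `(Eᗮ)ᗮ = E` -/
theorem Ev.mem_of_orth [FiniteDimensional F V] (h : Ev B N) {e f v : V}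
    (hv : ∀ w, B w e = 0 → B w f = 0 → B w v = 0) : v ∈ span F {e, f} := by
  have hnd : B.Nondegenerate := by
    rw [LinearMap.BilinForm.nondegenerate_iff_ker_eq_bot, LinearMap.ker_eq_bot']
    intro u hu
    exact h.nd u fun w => by rw [hu]; rfl
  have hrefl : B.IsRefl := h.alt.isRefl
  have h1 := LinearMap.BilinForm.orthogonal_orthogonal hnd hrefl (span F {e, f})
  rw [← h1, LinearMap.BilinForm.mem_orthogonal_iff]
  intro w hw
  rw [LinearMap.BilinForm.mem_orthogonal_iff] at hw
  refine hv w ?_ ?_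
  · rw [h.symm]
    exact hw e (Submodule.subset_span (by simp))
  · rw [h.symm]
    exact hw f (Submodule.subset_span (by simp))

/-- there are `w z ∈ Eᗮ` with `B z w = 1` -/
theorem Ev.exists_pair [FiniteDimensional F V] (h : Ev B N) {e f : V} (hdim : 6 ≤ finrank F V) :
    ∃ w z, B w e = 0 ∧ B w f = 0 ∧ B z e = 0 ∧ B z f = 0 ∧ B z w = 1 := by
  have hnd : B.Nondegenerate := by
    rw [LinearMap.BilinForm.nondegenerate_iff_ker_eq_bot, LinearMap.ker_eq_bot']
    intro u hu
    exact h.nd u fun w => by rw [hu]; rfl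
  have hrefl : B.IsRefl := h.alt.isRefl
  have h1 := LinearMap.BilinForm.finrank_orthogonal hnd (span F {e, f})
  have h2 : finrank F (span F ({e, f} : Set V)) ≤ 2 := by
    classical
    have h3 := finrank_span_finset_le_card (R := F) ({e, f} : Finset V)
    rw [Finset.coe_pair] at h3
    exact h3.trans Finset.card_le_two
  obtain ⟨w, hw, hwE⟩ : ∃ w ∈ B.orthogonal (span F {e, f}), w ∉ span F ({e, f} : Set V) := by
    by_contra hcon
    push Not at hcon
    have h3 := Submodule.finrank_mono (s := B.orthogonal (span F {e, f})) (t := span F {e, f}) hcon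
    omega
  rw [LinearMap.BilinForm.mem_orthogonal_iff] at hw
  have hwe : B w e = 0 := by
    rw [h.symm]; exact hw e (Submodule.subset_span (by simp))
  have hwf : B w f = 0 := by
    rw [h.symm]; exact hw f (Submodule.subset_span (by simp))
  have h4 : ∃ z, B z e = 0 ∧ B z f = 0 ∧ B z w ≠ 0 := by
    by_contra hcon
    push Not at hcon
    exact hwE (h.mem_of_orth hcon)
  obtain ⟨z, hze, hzf, hzw⟩ := h4
  refine ⟨w, (B z w)⁻¹ • z, hwe, hwf, ?_, ?_, ?_⟩
  · rw [map_smul, LinearMap.smul_apply, hze, smul_zero]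
  · rw [map_smul, LinearMap.smul_apply, hzf, smul_zero]
  · rw [map_smul, LinearMap.smul_apply, smul_eq_mul, inv_mul_cancel₀ hzw]

/-- **`R_E ≤ [Q_E, x]`** -/
theorem Ev.sr_mem_cmm [FiniteDimensional F V] [Finite G] (h : Ev B N) {e f : V} (hef : B e f = 0)
    (hli : ∀ a b : F, a • e + b • f = 0 → a = 0 ∧ b = 0) (hdim : 6 ≤ finrank F V) {x : G}
    (hx : ∀ v ∈ span F {e, f}, x • v ∈ span F {e, f}) (hq : x ∉ h.QE e f) : h.sr hef ∈ cmm (h.QE e f) x := by
  have he : e ∈ span F {e, f} := Submodule.subset_span (by simp)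
  have hf : f ∈ span F {e, f} := Submodule.subset_span (by simp)
  have he0 : e ≠ 0 := by
    intro h0
    have := (hli 1 0 (by rw [h0]; simp)).1
    exact one_ne_zero this
  obtain ⟨σ, h1, h2⟩ := h.semi x
  obtain ⟨e', he', w, z, hwe, hwf, hze, hzf, hne⟩ : ∃ e' ∈ span F {e, f}, ∃ w z, B w e = 0 ∧ B w f = 0 ∧ B z e = 0 ∧
      B z f = 0 ∧ B z (x • w) • (x • e') + B z w • e' ≠ 0 := by
    by_contra hcon
    push Not at hcon
    apply hq
    have hcon' : ∀ e' ∈ span F {e, f}, ∀ w z, B w e = 0 → B w f = 0 → B z e = 0 → B z f = 0 →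
        B z (x • w) • (x • e') = B z w • e' := by
      intro e' he' w z h3 h4 h5 h6
      have h7 := hcon e' he' w z h3 h4 h5 h6
      rw [← sub_eq_zero, sub_eq_add_neg, h.vneg]
      exact h7
    obtain ⟨w, z, hwe, hwf, hze, hzf, hzw⟩ := h.exists_pair (e := e) (f := f) hdim
    obtain ⟨κ, hκ⟩ : ∃ κ, κ = B z (x • w) := ⟨_, rfl⟩
    have hk : ∀ e' ∈ span F {e, f}, κ • (x • e') = e' := by
      intro e' he'
      have := hcon' e' he' w z hwe hwf hze hzf
      rw [hzw, one_smul] at this
      rw [hκ]; exact this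
    have hk0 : κ ≠ 0 := by
      rintro rfl
      have := hk e he
      rw [zero_smul] at this
      exact he0 this.symm
    have hσ : ∀ a, σ a = a := by
      intro a
      have h3 := hk (a • e) (Submodule.smul_mem _ a he)
      rw [h1, smul_comm, hk e he] at h3
      have h4 : (σ a - a) • e = 0 := by rw [sub_smul, h3, sub_self]
      rcases smul_eq_zero.1 h4 with h5 | h5
      · exact sub_eq_zero.1 h5
      · exact absurd h5 he0
    have hxN : x ∈ N := (h.mem x).2 fun a v => by rw [h1, hσ]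
    -- the action on the orthogonal complement
    have horth : ∀ w', B w' e = 0 → B w' f = 0 → x • w' - κ • w' ∈ span F {e, f} := by
      intro w' h3 h4
      apply h.mem_of_orth
      intro z' h5 h6
      have h7 := hcon' e he w' z' h3 h4 h5 h6
      have h8 : B z' (x • w') • e = (κ * B z' w') • e := by
        rw [← hk e he, smul_comm, h7, smul_smul, hk e he]
      have h9 : (B z' (x • w') - κ * B z' w') • e = 0 := by rw [sub_smul, h8, sub_self]
      rcases smul_eq_zero.1 h9 with h10 | h10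
      · rw [map_sub, LinearMap.map_smul (B z') κ w', smul_eq_mul]; exact h10
      · exact absurd h10 he0
    have hκ1 : κ = 1 := by
      obtain ⟨p, hp⟩ : ∃ p, p = x • w - κ • w := ⟨_, rfl⟩
      obtain ⟨q, hq⟩ : ∃ q, q = x • z - κ • z := ⟨_, rfl⟩
      have h3 := horth w hwe hwf
      have h4 := horth z hze hzf
      rw [← hp] at h3
      rw [← hq] at h4
      have h5 := h.isom hxN z w
      have h6 : x • w = κ • w + p := by rw [hp]; abel
      have h7 : x • z = κ • z + q := by rw [hq]; abel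
      rw [h6, h7] at h5
      have h8 : B w q = 0 := h.orth_span hwe hwf h4
      have h9 : B z p = 0 := h.orth_span hze hzf h3
      have h10 : B q p = 0 := h.ti_span hef h4 h3
      have h11 : B q w = 0 := by rw [h.symm, h8]
      simp only [map_add, LinearMap.add_apply, LinearMap.map_smul, LinearMap.smul_apply, smul_eq_mul, h9, h10, h11, hzw,
        mul_one, mul_zero, add_zero] at h5
      have h12 : (κ - 1) * (κ - 1) = 0 := by linear_combination h5 + (1 - κ) * h.two
      have h13 := mul_self_eq_zero.1 h12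
      linear_combination h13
    have hfix : ∀ e' ∈ span F {e, f}, x • e' = e' := by
      intro e' he'
      have := hk e' he'
      rwa [hκ1, one_smul] at this
    refine ⟨hxN, hfix e he, hfix f hf, fun v h3 h4 => ?_⟩
    have := horth v h3 h4
    rwa [hκ1, one_smul] at this
  obtain ⟨ε, hε⟩ : ∃ ε, ε = B z (x • w) • (x • e') + B z w • e' := ⟨_, rfl⟩
  rw [← hε] at hne
  have hεE : ε ∈ span F {e, f} := by
    rw [hε]
    exact Submodule.add_mem _ (Submodule.smul_mem _ _ (hx _ he')) (Submodule.smul_mem _ _ he')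
  have hew : B e' w = 0 := by rw [h.symm]; exact h.orth_span hwe hwf he'
  have hxew : B (x • e') (x • w) = 0 := h.form_zero x hew
  have hu : h.sr hew ∈ h.QE e f := h.sr_mem_QE hef he' hwe hwf hew
  have hc : h.sr hew * h.sr hxew ∈ cmm (h.QE e f) x := by
    have h3 := mem_cmm (x := x) hu
    have h4 : h.sr hew * x * (h.sr hew)⁻¹ * x⁻¹ = h.sr hew * (x * h.sr hew * x⁻¹) := by
      rw [h.sr_inv]; group
    rw [h4, h.conj_sr x hew] at h3
    exact h3
  -- all the elements `sr f' ε`
  have key : ∀ f' ∈ span F {e, f}, ∀ hfε : B f' ε = 0, h.sr hfε ∈ cmm (h.QE e f) x := by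
    intro f' hf' hfε
    have hfz : B f' z = 0 := by rw [h.symm]; exact h.orth_span hze hzf hf'
    have hv : h.sr hfz ∈ h.QE e f := h.sr_mem_QE hef hf' hze hzf hfz
    have h3 := cmm_comm hv hc
    have h4 : h.sr hfz * (h.sr hew * h.sr hxew) * (h.sr hfz)⁻¹ * (h.sr hew * h.sr hxew)⁻¹ =
        h.sr hfz * ((h.sr hew * h.sr hxew) * h.sr hfz * (h.sr hew * h.sr hxew)⁻¹) := by
      rw [h.sr_inv]; group
    rw [h4, h.conj_sr _ hfz] at h3
    have h5 : h.sr hfz * h.sr (h.form_zero (h.sr hew * h.sr hxew) hfz) = h.sr hfε := by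
      have hxe' := hx _ he'
      have hf1 : B f' (x • e') = 0 := h.ti_span hef hf' hxe'
      have hf2 : B f' (x • w) = 0 := by
        rw [h.symm]; exact h.orth_stable hx hwe hwf hf'
      have hf3 : B f' e' = 0 := h.ti_span hef hf' he'
      have hf4 : B f' w = 0 := by rw [h.symm]; exact h.orth_span hwe hwf hf'
      have hz1 : B z (x • e') = 0 := h.orth_span hze hzf hxe'
      have hz2 : B z e' = 0 := h.orth_span hze hzf he'
      have ha : (h.sr hew * h.sr hxew) • f' = f' := by
        rw [mul_smul, h.sr_apply hxew, hf1, hf2, zero_smul, zero_smul, add_zero, add_zero, h.sr_apply, hf3, hf4,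
          zero_smul, zero_smul, add_zero, add_zero]
      have hb : (h.sr hew * h.sr hxew) • z = z + ε := by
        rw [mul_smul, h.sr_apply hxew, hz1, zero_smul, add_zero, h.sr_apply hew]
        have h6 : B (x • e') e' = 0 := h.ti_span hef hxe' he'
        have h7 : B (x • e') w = 0 := by rw [h.symm]; exact h.orth_span hwe hwf hxe'
        simp only [map_add, map_smul, LinearMap.add_apply, LinearMap.smul_apply, h6, h7, hz2, smul_zero, add_zero,
          zero_smul, zero_add]
        rw [hε]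
        abel
      apply h.ext
      intro v
      rw [mul_smul, h.sr_apply hfz, h.sr_apply, h.sr_apply, ha, hb]
      have hzε : B z ε = 0 := h.orth_span hze hzf hεE
      have hεz : B ε z = 0 := by rw [h.symm, hzε]
      have hfz' : B z f' = 0 := by rw [h.symm, hfz]
      have hfε' : B ε f' = 0 := by rw [h.symm, hfε]
      simp only [map_add, map_smul, LinearMap.add_apply, LinearMap.smul_apply, hzε, hεz, hfz, hfz', hfε, hfε', h.self,
        smul_zero, add_zero, zero_smul, zero_add, smul_add, add_smul]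
      have e1 := h.vadd_self (B v f' • z)
      have e2 := h.vadd_self (B v z • f')
      calc _ = v + B v f' • ε + B v ε • f' + (B v f' • z + B v f' • z) + (B v z • f' + B v z • f') := by abel
        _ = _ := by rw [e1, e2, add_zero, add_zero]
    rw [h5] at h3
    exact h3
  obtain ⟨α, β, hαβ⟩ := mem_span_pair.1 hεE
  by_cases hα : α = 0
  · have hβ : β ≠ 0 := by
      rintro rfl
      apply hne
      rw [← hαβ, hα, zero_smul, zero_smul, add_zero]
    have hfe : B f e = 0 := by rw [h.symm, hef]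
    have hfε : B (β⁻¹ • e) ε = 0 := by
      rw [← hαβ, map_add, map_smul, map_smul, map_smul, LinearMap.smul_apply, LinearMap.smul_apply, h.self, hef]
      simp
    have h6 := key (β⁻¹ • e) (Submodule.smul_mem _ _ he) hfε
    have h7 : h.sr hfε = h.sr hef := by
      apply h.ext
      intro v
      rw [h.sr_apply, h.sr_apply, ← hαβ, hα, zero_smul, zero_add, map_smul, map_smul, smul_eq_mul, smul_eq_mul,
        smul_smul, smul_smul]
      have e1 : β⁻¹ * B v e * β = B v e := by field_simp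
      have e2 : β * B v f * β⁻¹ = B v f := by field_simp
      rw [e1, e2]
    rw [← h7]; exact h6
  · have hfe : B f e = 0 := by rw [h.symm, hef]
    have hfε : B (α⁻¹ • f) ε = 0 := by
      rw [← hαβ, map_add, map_smul, map_smul, map_smul, LinearMap.smul_apply, LinearMap.smul_apply, h.self, hfe]
      simp
    have h6 := key (α⁻¹ • f) (Submodule.smul_mem _ _ hf) hfε
    have h7 : h.sr hfε = h.sr hef := by
      apply h.ext
      intro v
      rw [h.sr_apply, h.sr_apply, ← hαβ, map_add, map_smul, map_smul, map_smul, smul_eq_mul, smul_eq_mul, smul_eq_mul,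
        smul_add, add_smul, smul_smul, smul_smul, smul_smul, smul_smul]
      have e1 : α⁻¹ * B v f * α = B v f := by field_simp
      have e2 : α * B v e * α⁻¹ = B v e := by field_simp
      have e3 : β * B v f * α⁻¹ = α⁻¹ * B v f * β := by ring
      rw [e1, e2, e3]
      have e4 := h.vadd_self ((α⁻¹ * B v f * β) • f)
      calc _ = v + B v e • f + B v f • e + ((α⁻¹ * B v f * β) • f + (α⁻¹ * B v f * β) • f) := by abel
        _ = _ := by rw [e4, add_zero]
    rw [← h7]; exact h6

theorem Ev.sr_ne_one [FiniteDimensional F V] (h : Ev B N) {e f : V} (hef : B e f = 0)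
    (hli : ∀ a b : F, a • e + b • f = 0 → a = 0 ∧ b = 0) : h.sr hef ≠ 1 := by
  intro h1
  have he0 : e ≠ 0 := by
    intro h0
    have := (hli 1 0 (by rw [h0]; simp)).1
    exact one_ne_zero this
  have h2 : ∃ v, B v e ≠ 0 := by
    by_contra hcon
    push Not at hcon
    exact he0 (h.nd e fun v => by rw [h.symm, hcon])
  obtain ⟨v, hv⟩ := h2
  have h3 := h.sr_apply hef v
  rw [h1, one_smul] at h3
  have h4 : B v f • e + B v e • f = 0 := by
    have : v + (B v f • e + B v e • f) = v := by rw [← add_assoc, add_right_comm]; exact h3.symm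
    exact left_eq_add.1 this.symm
  exact hv (hli _ _ h4).2

end

section rules

variable {F V G Ω : Type*} [Field F] [AddCommGroup V] [Module F V] [FiniteDimensional F V] [Group G] [Finite G]
  [DistribMulAction G V] {B : LinearMap.BilinForm F V} {N : Subgroup G} [MulAction G Ω] [Nonempty Ω]

/-- **Short root rule, one element.** -/
theorem Ev.lrs_one (h : Ev B N) (hE : Env G Ω N) {e f : V} (hef : B e f = 0)
    (hli : ∀ a b : F, a • e + b • f = 0 → a = 0 ∧ b = 0) (hdim : 6 ≤ finrank F V) {x : G}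
    (hx : ∀ v ∈ span F {e, f}, x • v ∈ span F {e, f}) (hq : x ∉ h.QE e f)
    (hcov : ∀ ω : Ω, h.sr hef • ω = ω ∨ x • ω = ω) : False :=
  not_cov_one hE (U := h.QE e f) hcov (fun u hu => h.QE_comm hef hu) (h.sr_ne_one hef hli)
    (h.sr_mem_cmm hef hli hdim hx hq)

/-- **Short root rule**, elements of odd prime order. -/
theorem Ev.lrs (h : Ev B N) (hE : Env G Ω N) {e f : V} (hef : B e f = 0)
    (hli : ∀ a b : F, a • e + b • f = 0 → a = 0 ∧ b = 0) (hdim : 6 ≤ finrank F V) {κ : Type*} [Finite κ] {x : κ → G}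
    {r : κ → ℕ} (hr : ∀ i, (r i).Prime) (hx : ∀ i, x i ^ r i = 1) (hc : ∀ i j, x i * x j = x j * x i)
    (hodd : ∀ i, r i ≠ 2) (hne : ∀ i, x i ≠ 1) (hN : ∀ i, ∀ u ∈ N, x i * u * (x i)⁻¹ ∈ N)
    (hxE : ∀ i, ∀ v ∈ span F {e, f}, x i • v ∈ span F {e, f})
    (hcov : ∀ ω : Ω, h.sr hef • ω = ω ∨ ∃ i, x i • ω = ω) : False := by
  have h2 : Fact (Nat.Prime 2) := ⟨Nat.prime_two⟩
  obtain ⟨n, hn⟩ := IsPGroup.iff_card.1 (h.QE_isPGroup hef)
  have hcop : ∀ i, (r i).Coprime (Nat.card (h.QE e f)) := by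
    intro i
    rw [hn]
    exact Nat.Coprime.pow_right _ ((Nat.coprime_primes (hr i) Nat.prime_two).2 (hodd i))
  refine not_cov_lr hE hr hx hc (U := h.QE e f) hcov (fun i u hu => h.QE_norm (hxE i) (hN i u hu.1) hu)
    (h.QE_isPGroup hef).isNilpotent hcop (fun u hu => h.QE_comm hef hu) (h.sr_ne_one hef hli) fun i => ?_
  refine h.sr_mem_cmm hef hli hdim (hxE i) fun hq => ?_
  have h3 := h.QE_pow hef hq
  have h4 : orderOf (x i) ∣ r i := orderOf_dvd_of_pow_eq_one (hx i)
  have h5 : orderOf (x i) ∣ 4 := orderOf_dvd_of_pow_eq_one h3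
  have h6 : (r i).Coprime 4 := by
    have := Nat.Coprime.pow_right 2 ((Nat.coprime_primes (hr i) Nat.prime_two).2 (hodd i))
    exact this
  exact hne i (orderOf_eq_one_iff.1 (Nat.eq_one_of_dvd_coprimes h6 h4 h5))

end rules

end Cfsg.Agent.H385.RC
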